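import Cfsg.Agent.Lib.Helper84.RO.Defs
import Cfsg.Agent.Lib.Helper82.ROODD
import Cfsg.Agent.Lib.Helper82.Linear
import Cfsg.Agent.Lib.Helper82.CharKer
import Cfsg.Agent.Lib.Helper82.Constituent
import Cfsg.Agent.Lib.Helper5.LinExt
import Cfsg.Agent.Lib.Helper19.IndFun2
import Cfsg.Agent.Lib.Helper19.IndChar
import Cfsg.Agent.Lib.Helper4.CharBasic

set_option autoImplicit false

namespace Cfsg.Agent.Lib.Helper4.RO

open Cfsg Cfsg.Agent.Lib.Helper5 Cfsg.Agent.Lib.Helper84.RO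
open scoped ComplexConjugate

/-- a subgroup `H ≥ Q` with a linear character non trivial on `x`, when `x` of order prime to
`|Q|` centralizes `Q` -/
theorem b1_exists_linear {G : Type*} [Group G] [Finite G] (Q : Subgroup G) (x : G) (hx1 : x ≠ 1)
    (hxQ : ∀ s ∈ Q, s * x = x * s) (hcop : (Nat.card Q).Coprime (orderOf x)) :
    ∃ (H : Subgroup G) (hxH : x ∈ H) (lam : H → ℂ), Q ≤ H ∧ IsCharacter H lam ∧ lam 1 = 1 ∧
      lam ⟨x, hxH⟩ ≠ 1 := by
  classical
  obtain ⟨Z, hZ⟩ : ∃ Z : Subgroup G, Z = Subgroup.zpowers x := ⟨_, rfl⟩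
  have hxZ : x ∈ Z := by rw [hZ]; exact Subgroup.mem_zpowers x
  have hcomm : ∀ (s : Q) (z : Z), Commute (Q.subtype s) (Z.subtype z) := by
    rintro ⟨s, hs⟩ ⟨z, hz⟩
    rw [hZ] at hz
    obtain ⟨k, rfl⟩ := Subgroup.mem_zpowers_iff.mp hz
    exact Commute.zpow_right (hxQ s hs) k
  let f : ↥Q × ↥Z →* G := MonoidHom.noncommCoprod _ _ hcomm
  have hf : ∀ (s : Q) (z : Z), f (s, z) = (s : G) * (z : G) := fun s z => rfl
  have hdisj : Q ⊓ Z = ⊥ := by
    apply Disjoint.eq_bot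
    apply Subgroup.disjoint_of_coprime_natCard
    rw [hZ, Nat.card_zpowers]
    exact hcop
  have hinj : Function.Injective f := by
    rw [injective_iff_map_eq_one]
    rintro ⟨s, z⟩ h
    rw [hf] at h
    have h1 : (s : G) = (z : G)⁻¹ := eq_inv_of_mul_eq_one_left h
    have h2 : (s : G) ∈ Q ⊓ Z := ⟨s.2, by rw [h1]; exact Z.inv_mem z.2⟩
    rw [hdisj, Subgroup.mem_bot] at h2
    have h3 : (z : G) = 1 := by rw [h2, one_mul] at h; exact h
    exact Prod.ext (Subtype.ext h2) (Subtype.ext h3)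
  let e : ↥Q × ↥Z ≃* f.range := MonoidHom.ofInjective hinj
  have hZc : commutator Z = ⊥ := by
    rw [commutator_def, Subgroup.commutator_eq_bot_iff_le_centralizer]
    rintro ⟨a, ha⟩ _
    rw [Subgroup.mem_centralizer_iff]
    rintro ⟨b, hb⟩ _
    rw [hZ] at ha hb
    obtain ⟨i, rfl⟩ := Subgroup.mem_zpowers_iff.mp ha
    obtain ⟨j, rfl⟩ := Subgroup.mem_zpowers_iff.mp hb
    exact Subtype.ext (zpow_mul_comm x j i)
  have hxc : (⟨x, hxZ⟩ : Z) ∉ commutator Z := by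
    rw [hZc, Subgroup.mem_bot]
    intro h
    exact hx1 (congrArg Subtype.val h)
  obtain ⟨ζ, hζ, hζ1, hζx⟩ := exists_linear_ne_one hxc
  have hxH : x ∈ f.range := ⟨(1, ⟨x, hxZ⟩), by rw [hf]; simp⟩
  refine ⟨f.range, hxH, fun h => ζ ((e.symm h).2), ?_, ?_, ?_, ?_⟩
  · intro s hs
    exact ⟨(⟨s, hs⟩, 1), by rw [hf]; simp⟩
  · exact isCharacter_comp_hom hζ ((MonoidHom.snd _ _).comp e.symm.toMonoidHom)
  · simp [hζ1]
  · have : e.symm ⟨x, hxH⟩ = (1, ⟨x, hxZ⟩) := by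
      rw [MulEquiv.symm_apply_eq]
      apply Subtype.ext
      change x = f (1, ⟨x, hxZ⟩)
      rw [hf]; simp
    change ζ ((e.symm ⟨x, hxH⟩).2) ≠ 1
    rw [this]
    exact hζx

/-- [B1] -/
theorem centralizer_trivial_of_allReal {G : Type*} [Group G] [Finite G] (L : Subgroup G)
    (hL : L.Normal) (hab : ∀ a ∈ L, ∀ b ∈ L, a * b = b * a) (hodd : Odd (Nat.card L))
    (P : Sylow 2 G) (hall : AllReal G) :
    ∀ k ∈ L, (∀ s ∈ (P : Subgroup G), s * k = k * s) → k = 1 := by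
  classical
  intro x hxL hxP
  by_contra hx1
  have := Fintype.ofFinite G
  have hxodd : Odd (orderOf x) := by
    have h1 : orderOf x ∣ Nat.card L := by
      have := orderOf_dvd_natCard (⟨x, hxL⟩ : L)
      rwa [Subgroup.orderOf_mk] at this
    exact hodd.of_dvd_nat h1
  have hcop : (Nat.card (P : Subgroup G)).Coprime (orderOf x) := by
    obtain ⟨n, hn⟩ := IsPGroup.iff_card.mp P.2
    rw [hn]
    exact Nat.Coprime.pow_left n (Nat.coprime_two_left.mpr hxodd)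
  obtain ⟨H, hxH, lam, hPH, hlam, hlam1, hlamx⟩ := b1_exists_linear (P : Subgroup G) x hx1 hxP hcop
  have := Fintype.ofFinite H
  have hind : IsCharacter G (indFun H lam) := Cfsg.Agent.Lib.Helper19.isCharacter_indFun H lam hlam
  have hdeg1 : charDegree lam = 1 := by
    have := Cfsg.Agent.Lib.Helper82.isChar_one_eq hlam
    rw [hlam1] at this
    exact_mod_cast this.symm
  have hidx : ¬ 2 ∣ H.index := by
    intro h
    exact P.not_dvd_index (h.trans (Subgroup.index_dvd_of_le hPH))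
  have hdeg : ¬ 2 ∣ charDegree (indFun H lam) := by
    rw [Cfsg.Agent.Lib.Helper82.charDegree_indFun H hlam, hdeg1, mul_one]
    exact hidx
  obtain ⟨χ, hχ0, hχd⟩ := exists_constituent_not_dvd hind hdeg
  have hχodd : Odd (charDegree (χ : G → ℂ)) := by
    rw [← Nat.not_even_iff_odd, even_iff_two_dvd]; exact hχd
  have hχr := hall χ hχodd
  have hker := Cfsg.Agent.Lib.Helper82.RO.ker_of_odd_normal' L hodd χ χ.2 ⟨hχr, hχodd⟩ x hxL
  have hχc := isCharacter_of_irr χ.2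
  rw [Cfsg.Agent.Lib.Helper19.frobenius_reciprocity H lam χ (isClassFunction_of_char hχc)] at hχ0
  apply hχ0
  rw [classInner]
  have hS : ∑ h : H, lam h * conj ((χ : G → ℂ) h) =
      lam ⟨x, hxH⟩ * ∑ h : H, lam h * conj ((χ : G → ℂ) h) := by
    conv_lhs => rw [← Equiv.sum_comp (Equiv.mulRight (⟨x, hxH⟩ : H))]
    rw [Finset.mul_sum]
    refine Finset.sum_congr rfl fun h _ => ?_
    rw [Equiv.coe_mulRight, Cfsg.Agent.Lib.Helper82.isChar_linear_mul hlam hlam1, Subgroup.coe_mul,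
      Cfsg.Agent.Lib.Helper82.isChar_mul_of_mem_ker hχc hker]
    ring
  have hS0 : ∑ h : H, lam h * conj ((χ : G → ℂ) h) = 0 := by
    have h1 : (1 - lam ⟨x, hxH⟩) * ∑ h : H, lam h * conj ((χ : G → ℂ) h) = 0 := by
      rw [sub_mul, one_mul, ← hS, sub_self]
    rcases mul_eq_zero.mp h1 with h | h
    · exact absurd (sub_eq_zero.mp h).symm hlamx
    · exact h
  rw [hS0, mul_zero]

end Cfsg.Agent.Lib.Helper4.RO
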