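import Cfsg.Agent.Lib.Helper84.RO.Defs
import Cfsg.Agent.Lib.Helper84.PPrimeDeg2
import Cfsg.Agent.Lib.Helper82.ROORB
import Cfsg.Agent.Lib.Helper82.ROTW
import Cfsg.Agent.Lib.Helper82.Linear
import Cfsg.Agent.Lib.Helper82.Constituent
import Cfsg.Agent.Lib.Helper5.LinExt
import Cfsg.Agent.Lib.Helper19.IndFun2
import Cfsg.Agent.Lib.Helper19.IndChar
import Cfsg.Agent.Lib.Helper4.CharBasic
import Cfsg.Agent.Lib.Helper4.CharInner
import Cfsg.Agent.Lib.Helper4.RORC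

set_option autoImplicit false

namespace Cfsg.Agent.Lib.Helper4.RO

open Cfsg Cfsg.Agent.Lib.Helper5 Cfsg.Agent.Lib.Helper84.RO
open scoped ComplexConjugate

/-- the restriction to `L` of a linear constituent `μ` of `χ|Q` is an invariant linear character
under `χ` -/
theorem b2_restrict {G : Type*} [Group G] [Finite G] (L : Subgroup G) (hL : L.Normal)
    (Q : Subgroup G) (hLQ : L ≤ Q) (χ : G → ℂ) (hχ : IsCharacter G χ) [Fintype Q]
    (μ : Q → ℂ) (hμ : IsCharacter Q μ) (hμ1 : μ 1 = 1)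
    (hc : classInner (fun h : Q => χ h) μ ≠ 0) :
    IsIrrCharacter L (fun l : L => μ ⟨l, hLQ l.2⟩) ∧
    (∀ u ∈ Q, cjF hL (fun l : L => μ ⟨l, hLQ l.2⟩) u = fun l : L => μ ⟨l, hLQ l.2⟩) ∧
    ∑ᶠ l : L, χ l * conj (μ ⟨l, hLQ l.2⟩) ≠ 0 := by
  classical
  have := Fintype.ofFinite L
  have hθc : IsCharacter L (fun l : L => μ ⟨l, hLQ l.2⟩) :=
    isCharacter_comp_hom hμ (Subgroup.inclusion hLQ)
  have hθ1 : (fun l : L => μ ⟨l, hLQ l.2⟩) 1 = 1 := hμ1
  have hθirr := Cfsg.Agent.Lib.Helper82.isChar_linear_isIrr hθc hθ1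
  refine ⟨hθirr, ?_, ?_⟩
  · intro u hu
    funext l
    rw [cjF_apply]
    exact isClassFunction_of_char hμ ⟨l, hLQ l.2⟩ ⟨u, hu⟩
  · have hχQ : IsCharacter Q (fun h : Q => χ h) := isCharacter_comp_hom hχ Q.subtype
    obtain ⟨Δ, hΔ, hsum⟩ := exists_add_of_constituent hχQ
      (Cfsg.Agent.Lib.Helper82.isChar_linear_isIrr hμ hμ1) hc
    have hΔL : IsCharacter L (fun l : L => Δ ⟨l, hLQ l.2⟩) :=
      isCharacter_comp_hom hΔ (Subgroup.inclusion hLQ)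
    obtain ⟨n, hn⟩ := classInner_char_char hΔL hθc
    have hres : (fun l : L => χ l) =
        (fun l : L => μ ⟨l, hLQ l.2⟩) + (fun l : L => Δ ⟨l, hLQ l.2⟩) := by
      funext l
      exact congrFun hsum ⟨l, hLQ l.2⟩
    have hin : classInner (fun l : L => χ l) (fun l : L => μ ⟨l, hLQ l.2⟩) = 1 + n := by
      rw [hres, classInner_add_left, classInner_irr_self hθirr, hn]
    rw [finsum_eq_sum_of_fintype]
    intro h0
    rw [classInner, h0, mul_zero] at hin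
    have : (1 + n : ℂ) ≠ 0 := by exact_mod_cast (by omega : 1 + n ≠ 0)
    exact this hin.symm

/-- [B2] -/
theorem linReal_of_allReal {G : Type*} [Group G] [Finite G] (L : Subgroup G) (hL : L.Normal)
    (P : Sylow 2 G) (hLP : L ≤ P) (hexp : ∀ x ∈ L, x ^ 2 = 1) (hall : AllReal G)
    (hN : Subgroup.normalizer ((P : Subgroup G) : Set G) = P)
    (hq : ∀ ν : ↥(P : Subgroup G) → ℂ, IsCharacter ↥(P : Subgroup G) ν → ν 1 = 1 →
      (∀ l : L, ν ⟨l, hLP l.2⟩ = 1) → IsReal ν) : LinReal ↥(P : Subgroup G) := by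
  classical
  intro ν hν hν1
  have := Fintype.ofFinite G
  have := Fintype.ofFinite (P : Subgroup G)
  have hind : IsCharacter G (indFun (P : Subgroup G) ν) :=
    Cfsg.Agent.Lib.Helper19.isCharacter_indFun _ ν hν
  have hdeg1 : charDegree ν = 1 := by
    have := Cfsg.Agent.Lib.Helper82.isChar_one_eq hν
    rw [hν1] at this
    exact_mod_cast this.symm
  have hdeg : ¬ 2 ∣ charDegree (indFun (P : Subgroup G) ν) := by
    rw [Cfsg.Agent.Lib.Helper82.charDegree_indFun _ hν, hdeg1, mul_one]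
    exact P.not_dvd_index
  obtain ⟨χ, hχ0, hχd⟩ := exists_constituent_not_dvd hind hdeg
  have hχodd : Odd (charDegree (χ : G → ℂ)) := by
    rw [← Nat.not_even_iff_odd, even_iff_two_dvd]; exact hχd
  have hχr := hall χ hχodd
  have hχc := isCharacter_of_irr χ.2
  rw [Cfsg.Agent.Lib.Helper19.frobenius_reciprocity _ ν χ (isClassFunction_of_char hχc)] at hχ0
  have hχ0' : classInner (fun h : (P : Subgroup G) => (χ : G → ℂ) h) ν ≠ 0 := by
    rw [← classInner_conj_symm]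
    intro h
    exact hχ0 ((map_eq_zero _).mp h)
  have hχQ : IsCharacter (P : Subgroup G) (fun h : (P : Subgroup G) => (χ : G → ℂ) h) :=
    isCharacter_comp_hom hχc (P : Subgroup G).subtype
  have hχQro : IsRO (fun h : (P : Subgroup G) => (χ : G → ℂ) h) := ⟨fun g => hχr _, hχodd⟩
  obtain ⟨ν₁, hν₁ro, hν₁c⟩ := exists_ro_constituent _ hχQ hχQro
  have hν₁1 : (ν₁ : ↥(P : Subgroup G) → ℂ) 1 = 1 := by
    apply Cfsg.Agent.Lib.Helper84.irr_pgroup_linear_of_not_dvd P.2 ν₁.2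
    rw [← even_iff_two_dvd, Nat.not_even_iff_odd]
    exact hν₁ro.2
  have hν₁ch := isCharacter_of_irr ν₁.2
  obtain ⟨a1, a2, a3⟩ := b2_restrict L hL (P : Subgroup G) hLP χ hχc ν hν hν1 hχ0'
  obtain ⟨b1, b2, b3⟩ := b2_restrict L hL (P : Subgroup G) hLP χ hχc ν₁ hν₁ch hν₁1 hν₁c
  have hχtop : IsIrrCharacter (⊤ : Subgroup G) (fun x : (⊤ : Subgroup G) => (χ : G → ℂ) x) :=
    Cfsg.Agent.Lib.Helper82.isIrr_comp_surj χ.2 (⊤ : Subgroup G).subtype
      (fun g => ⟨⟨g, Subgroup.mem_top g⟩, rfl⟩)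
  have horb := (Cfsg.Agent.Lib.Helper82.RO.orb L hL P ⊤ le_top le_top _ hχtop hχodd).2 _ _ a1 b1
    a2 b2 a3
  obtain ⟨n, hn, hθ⟩ := horb.mp b3
  rw [hN] at hn
  rw [a2 n hn] at hθ
  have hθ' : ∀ l : L, (ν₁ : ↥(P : Subgroup G) → ℂ) ⟨l, hLP l.2⟩ = ν ⟨l, hLP l.2⟩ :=
    fun l => congrFun hθ l
  have hprod : IsReal (ν * (ν₁ : ↥(P : Subgroup G) → ℂ)) := by
    apply hq _ (isCharacter_mul hν hν₁ch)
    · rw [Pi.mul_apply, hν1, hν₁1, mul_one]
    · intro l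
      rw [Pi.mul_apply, hθ', ← Cfsg.Agent.Lib.Helper82.isChar_linear_mul hν hν1]
      have : (⟨l, hLP l.2⟩ : (P : Subgroup G)) * ⟨l, hLP l.2⟩ = 1 := by
        apply Subtype.ext
        change (l : G) * l = 1
        rw [← sq]
        exact hexp l l.2
      rw [this, hν1]
  have hrl : IsRL (ν₁ : ↥(P : Subgroup G) → ℂ) := ⟨hν₁ch, hν₁1, hν₁ro.1⟩
  intro g
  have h1 : ν g = (ν * (ν₁ : ↥(P : Subgroup G) → ℂ)) g * (ν₁ : ↥(P : Subgroup G) → ℂ) g := by
    rw [Pi.mul_apply, mul_assoc, Cfsg.Agent.Lib.Helper82.RO.rl_mul_self hrl, mul_one]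
  rw [h1, Complex.mul_im, hprod g, hν₁ro.1 g]
  ring

end Cfsg.Agent.Lib.Helper4.RO
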