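import Cfsg.Agent.Lib.Helper84.RO.Defs
import Cfsg.Agent.Lib.Helper84.PPrimeDeg2
import Cfsg.Agent.Lib.Helper82.ROCL
import Cfsg.Agent.Lib.Helper82.RORES
import Cfsg.Agent.Lib.Helper82.ROTR
import Cfsg.Agent.Lib.Helper82.ROTW
import Cfsg.Agent.Lib.Helper82.Linear
import Cfsg.Agent.Lib.Helper82.Constituent
import Cfsg.Agent.Lib.Helper5.LinExt
import Cfsg.Agent.Lib.Helper4.CharBasic
import Cfsg.Agent.Lib.Helper4.CharInner
import Cfsg.Agent.S0854

set_option autoImplicit false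

namespace Cfsg.Agent.Lib.Helper4.RO

open Cfsg Cfsg.Agent.Lib.Helper5 Cfsg.Agent.Lib.Helper84.RO
open scoped ComplexConjugate

/-- a linear constituent of `ψ` restricts to `θ` when `ψ` restricts to a multiple of `θ` -/
theorem c2_aux {S L₀ : Type*} [Group S] [Fintype S] [Group L₀] [Fintype L₀] (j : L₀ →* S)
    (ψ : S → ℂ) (hψ : IsCharacter S ψ) (θ : L₀ → ℂ) (hθ : IsIrrCharacter L₀ θ) (c : ℂ)
    (hres : ∀ l, ψ (j l) = c * θ l) (ν : S → ℂ) (hν : IsCharacter S ν) (hν1 : ν 1 = 1)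
    (hc : classInner ψ ν ≠ 0) : ∀ l, ν (j l) = θ l := by
  classical
  obtain ⟨Δ, hΔ, hsum⟩ := exists_add_of_constituent hψ
    (Cfsg.Agent.Lib.Helper82.isChar_linear_isIrr hν hν1) hc
  have hθ0c : IsCharacter L₀ (fun l => ν (j l)) := isCharacter_comp_hom hν j
  have hθ01 : (fun l => ν (j l)) 1 = 1 := by
    change ν (j 1) = 1
    rw [map_one, hν1]
  have hθ0 := Cfsg.Agent.Lib.Helper82.isChar_linear_isIrr hθ0c hθ01
  have hΔL : IsCharacter L₀ (fun l => Δ (j l)) := isCharacter_comp_hom hΔ j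
  obtain ⟨n, hn⟩ := classInner_char_char hΔL hθ0c
  have hres' : c • θ = (fun l => ν (j l)) + (fun l => Δ (j l)) := by
    funext l
    rw [Pi.smul_apply, smul_eq_mul, ← hres, hsum]
    rfl
  have hin : classInner (c • θ) (fun l => ν (j l)) = 1 + n := by
    rw [hres', classInner_add_left, classInner_irr_self hθ0, hn]
  by_contra hcon
  have hne : θ ≠ fun l => ν (j l) := by
    intro h
    apply hcon
    intro l
    exact (congrFun h l).symm
  rw [classInner_smul_left, classInner_irr_ne hθ hθ0 hne, mul_zero] at hin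
  have : (1 + n : ℂ) ≠ 0 := by exact_mod_cast (by omega : 1 + n ≠ 0)
  exact this hin.symm

/-- [C2] -/
theorem real_of_over {G : Type*} [Group G] [Finite G] (L : Subgroup G) (hL : L.Normal)
    (P : Sylow 2 G) (hLP : L ≤ P) (θ : L → ℂ) (hθ : IsRL θ)
    (hθP : ∀ u ∈ (P : Subgroup G), cjF hL θ u = θ) (hlin : LinReal ↥(P : Subgroup G))
    (hLT : L ≤ inertia hL θ)
    (hT : ∀ β : inertia hL θ → ℂ, IsIrrCharacter (inertia hL θ) β → Odd (charDegree β) →
      (∀ l : L, β ⟨l, hLT l.2⟩ = β 1) → IsReal β)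
    (χ : G → ℂ) (hχ : IsIrrCharacter G χ) (hdeg : Odd (charDegree χ))
    (hov : ∑ᶠ l : L, χ l * conj (θ l) ≠ 0) : IsReal χ := by
  classical
  have := Fintype.ofFinite G
  have := Fintype.ofFinite L
  have := Fintype.ofFinite (inertia hL θ)
  have := hL
  have hθirr := Cfsg.Agent.Lib.Helper82.isChar_linear_isIrr hθ.1 hθ.2.1
  have hLne : (Nat.card L : ℂ) ≠ 0 := by exact_mod_cast Nat.card_pos.ne'
  have hcon : classInner (fun n : L => χ n) θ ≠ 0 := by
    rw [finsum_eq_sum_of_fintype] at hov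
    rw [classInner]
    exact mul_ne_zero (inv_ne_zero hLne) hov
  obtain ⟨ξ, hξ, hind, hξθ⟩ := Cfsg.Agent.S0854.result L θ hθirr (inertia hL θ)
    (mem_inertia' hL θ) hLT χ hχ hcon
  have hξc := isCharacter_of_irr hξ
  have hξodd : Odd (charDegree ξ) := by
    rw [← hind, Cfsg.Agent.Lib.Helper82.charDegree_indFun _ hξc, Nat.odd_mul] at hdeg
    exact hdeg.2
  have hOv : Ov hLT ξ θ := by
    rw [Ov, finsum_eq_sum_of_fintype]
    intro h0
    rw [← hξθ, classInner, h0, mul_zero] at hcon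
    exact hcon rfl
  have hres := (Cfsg.Agent.Lib.Helper82.RO.res_of_ov_invariant L (inertia hL θ) hL hLT θ hθ.1
    hθ.2.1 (fun y hy => hy) ξ hξ).mp hOv
  have hPT : (P : Subgroup G) ≤ inertia hL θ := fun u hu => hθP u hu
  obtain ⟨S, hS⟩ : ∃ S : Subgroup (inertia hL θ), S = (P : Subgroup G).subgroupOf (inertia hL θ) :=
    ⟨_, rfl⟩
  have := Fintype.ofFinite S
  have hSidx : Odd S.index := by
    have h1 : S.index * (inertia hL θ).index = (P : Subgroup G).index := by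
      rw [hS]
      exact Subgroup.relIndex_mul_index hPT
    have h2 : Odd (P : Subgroup G).index := by
      rw [← Nat.not_even_iff_odd, even_iff_two_dvd]
      exact P.not_dvd_index
    rw [← h1, Nat.odd_mul] at h2
    exact h2.1
  let e : S ≃* (P : Subgroup G) :=
    (MulEquiv.subgroupCongr hS).trans (Subgroup.subgroupOfEquivOfLe hPT)
  have he : ∀ s : S, ((e s : (P : Subgroup G)) : G) = ((s : inertia hL θ) : G) := fun s => rfl
  let j : L →* S :=
    { toFun := fun l => ⟨⟨l, hLT l.2⟩, by rw [hS]; exact hLP l.2⟩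
      map_one' := rfl
      map_mul' := fun a b => rfl }
  have hSp : IsPGroup 2 S := P.2.of_equiv e.symm
  have hξS : IsCharacter S (fun s : S => ξ s) := isCharacter_comp_hom hξc S.subtype
  have hξSd : ¬ 2 ∣ charDegree (fun s : S => ξ s) := by
    rw [← even_iff_two_dvd, Nat.not_even_iff_odd]
    exact hξodd
  obtain ⟨ν, hν0, hνd⟩ := exists_constituent_not_dvd hξS hξSd
  have hν1 : (ν : S → ℂ) 1 = 1 :=
    Cfsg.Agent.Lib.Helper84.irr_pgroup_linear_of_not_dvd hSp ν.2 hνd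
  have hνc := isCharacter_of_irr ν.2
  have hνr : IsReal (ν : S → ℂ) := by
    have h1 := hlin (fun x => (ν : S → ℂ) (e.symm x))
      (isCharacter_comp_hom hνc e.symm.toMonoidHom) (by
        change (ν : S → ℂ) (e.symm 1) = 1
        rw [map_one, hν1])
    intro s
    have := h1 (e s)
    simpa using this
  have hνθ : ∀ l, (ν : S → ℂ) (j l) = θ l :=
    c2_aux j _ hξS θ hθirr (ξ 1) (fun l => hres l) ν hνc hν1 hν0
  obtain ⟨μ, hμ, hμθ⟩ := Cfsg.Agent.Lib.Helper82.RO.exists_rl_transfer S hSidx j θ (by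
    intro t l
    refine ⟨⟨(t : G) * l * (t : G)⁻¹, hL.conj_mem l l.2 t⟩, rfl, ?_⟩
    exact (mem_inertia' hL θ t).mp t.2 l) ν ⟨hνc, hν1, hνr⟩ hνθ
  have hβ : IsIrrCharacter (inertia hL θ) (μ * ξ) :=
    Cfsg.Agent.Lib.Helper82.isIrr_linear_mul hμ.1 hμ.2.1 hξ
  have hβ1 : (μ * ξ) 1 = ξ 1 := by rw [Pi.mul_apply, hμ.2.1, one_mul]
  have hβd : Odd (charDegree (μ * ξ)) := by
    rw [charDegree, hβ1]
    exact hξodd
  have hβr : IsReal (μ * ξ) := by
    apply hT _ hβ hβd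
    intro l
    rw [hβ1, Pi.mul_apply, hres l]
    have h1 : μ ⟨l, hLT l.2⟩ = θ l := hμθ l
    rw [h1]
    have h2 := Cfsg.Agent.Lib.Helper82.RO.rl_mul_self hθ l
    calc θ l * (ξ 1 * θ l) = ξ 1 * (θ l * θ l) := by ring
      _ = ξ 1 := by rw [h2, mul_one]
  have hξr : IsReal ξ := by
    intro g
    have h1 : ξ g = μ g * (μ * ξ) g := by
      rw [Pi.mul_apply, ← mul_assoc, Cfsg.Agent.Lib.Helper82.RO.rl_mul_self hμ, one_mul]
    rw [h1, Complex.mul_im, hβr g, hμ.2.2 g]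
    ring
  rw [← hind]
  rw [Cfsg.Agent.Lib.Helper82.RO.isReal_iff_conj] at hξr ⊢
  funext g
  rw [← Cfsg.Agent.Lib.Helper82.RO.indFun_conjFun, hξr]

end Cfsg.Agent.Lib.Helper4.RO
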