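import Cfsg.Agent.Lib.Helper84.RO.Defs
import Cfsg.Agent.Lib.Helper82.Basic
import Cfsg.Agent.Lib.Helper4.CharConj
import Cfsg.Agent.Lib.Helper4.CharDecomp

set_option autoImplicit false

namespace Cfsg.Agent.Lib.Helper4.RO

open Cfsg Cfsg.Agent.Lib.Helper5 Cfsg.Agent.Lib.Helper84.RO
open scoped ComplexConjugate

/-- [RC] a real character of odd degree has a real irreducible constituent of odd degree -/
theorem exists_ro_constituent {H : Type*} [Group H] [Fintype H] (ψ : H → ℂ) (hψ : IsCharacter H ψ)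
    (hro : IsRO ψ) : ∃ φ : IrrCharacter H, IsRO (φ : H → ℂ) ∧ classInner ψ (φ : H → ℂ) ≠ 0 := by
  classical
  have := finite_irrCharacter (G := H)
  have := Fintype.ofFinite (IrrCharacter H)
  obtain ⟨m, hm, hsum⟩ := char_eq_sum_nat_irr hψ
  by_contra hcon
  push Not at hcon
  let cj : IrrCharacter H → IrrCharacter H := fun φ =>
    ⟨fun g => conj ((φ : H → ℂ) g), isIrrCharacter_conj φ.2⟩
  have hcjcj : ∀ φ, cj (cj φ) = φ := by
    intro φ
    apply Subtype.ext
    funext g
    simp [cj]
  have hψr : (fun g => conj (ψ g)) = ψ := by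
    funext g
    exact Complex.conj_eq_iff_im.2 (hro.1 g)
  have hmcj : ∀ φ, m (cj φ) = m φ := by
    intro φ
    have h1 : classInner ψ ((cj φ : IrrCharacter H) : H → ℂ) = conj (classInner ψ (φ : H → ℂ)) := by
      rw [← classInner_conj_conj, hψr]
    rw [hm, hm, Complex.conj_natCast] at h1
    exact_mod_cast h1
  have hdcj : ∀ φ : IrrCharacter H, charDegree ((cj φ : IrrCharacter H) : H → ℂ) =
      charDegree (φ : H → ℂ) := by
    intro φ
    have h1 := Cfsg.Agent.Lib.Helper82.isChar_one_eq (isCharacter_of_irr (cj φ).2)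
    have h2 := Cfsg.Agent.Lib.Helper82.isChar_one_eq (isCharacter_of_irr φ.2)
    have h3 : ((cj φ : IrrCharacter H) : H → ℂ) 1 = conj ((φ : H → ℂ) 1) := rfl
    rw [h3, h2, Complex.conj_natCast] at h1
    exact_mod_cast h1.symm
  have hdeg : charDegree ψ = ∑ φ : IrrCharacter H, m φ * charDegree (φ : H → ℂ) := by
    have h1 := Cfsg.Agent.Lib.Helper82.isChar_one_eq hψ
    have h2 : ψ 1 = ∑ φ : IrrCharacter H, (m φ : ℂ) * (charDegree (φ : H → ℂ) : ℂ) := by
      conv_lhs => rw [hsum]
      rw [Finset.sum_apply]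
      refine Finset.sum_congr rfl fun φ _ => ?_
      rw [Pi.smul_apply, smul_eq_mul, Cfsg.Agent.Lib.Helper82.isChar_one_eq (isCharacter_of_irr φ.2)]
    rw [h1] at h2
    exact_mod_cast h2
  have hzero : ∑ φ : IrrCharacter H, ((m φ * charDegree (φ : H → ℂ) : ℕ) : ZMod 2) = 0 := by
    refine Finset.sum_involution (fun φ _ => cj φ) ?_ ?_ (fun _ _ => Finset.mem_univ _)
      (fun φ _ => hcjcj φ)
    · intro φ _
      rw [hmcj, hdcj]
      exact CharTwo.add_self_eq_zero _
    · intro φ _ hne heq
      apply hne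
      have hreal : IsReal (φ : H → ℂ) := by
        intro g
        have := congrFun (congrArg Subtype.val heq) g
        exact Complex.conj_eq_iff_im.1 this
      rw [ZMod.natCast_eq_zero_iff]
      by_contra hnd
      have hodd : Odd (m φ * charDegree (φ : H → ℂ)) := by
        rw [← Nat.not_even_iff_odd, even_iff_two_dvd]; exact hnd
      rw [Nat.odd_mul] at hodd
      have h0 := hcon φ ⟨hreal, hodd.2⟩
      rw [hm] at h0
      have : m φ = 0 := by exact_mod_cast h0
      rw [this] at hodd
      exact absurd hodd.1 (by decide)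
  rw [← Nat.cast_sum, ← hdeg, ZMod.natCast_eq_zero_iff] at hzero
  have := hro.2
  rw [← Nat.not_even_iff_odd, even_iff_two_dvd] at this
  exact this hzero

end Cfsg.Agent.Lib.Helper4.RO
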